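import Cfsg.Agent.MX.Defs

set_option autoImplicit false

namespace Cfsg.Agent.MX

open Cfsg Subgroup

variable {G : Type*} [Group G] [Finite G]

/-- coprime action of an `s`-group fixes a Sylow `r`-subgroup -/
theorem cop_grp {s r : ℕ} (hs : s.Prime) (hr : r.Prime) {U L : Subgroup G} (hU : IsPGroup s U)
    (hn : U ≤ normalizer (L : Set G)) (hL : ¬ s ∣ Nat.card L) :
    ∃ R : Subgroup G, R ≤ L ∧ Nat.card R = r ^ (Nat.card L).factorization r ∧
      U ≤ normalizer (R : Set G) := by
  haveI := Fact.mk hs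
  haveI := Fact.mk hr
  let φ : U →* MulAut L := (L.normalizerMonoidHom).comp (inclusion hn)
  letI : MulDistribMulAction U L := MulDistribMulAction.compHom L φ
  have hd : ¬ s ∣ Nat.card (Sylow r L) := fun h =>
    hL (h.trans ((Sylow.card_dvd_index (default : Sylow r L)).trans (index_dvd_card _)))
  obtain ⟨P, hP⟩ := hU.nonempty_fixed_point_of_prime_not_dvd_card (Sylow r L) hd
  refine ⟨(P : Subgroup L).map L.subtype, map_subtype_le _, ?_, ?_⟩
  · rw [card_map_of_injective L.subtype_injective, P.card_eq_multiplicity]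
  · intro u hu
    refine mem_normalizer_fintype ?_
    rintro _ ⟨a, ha, rfl⟩
    have h1 : (⟨u, hu⟩ : U) • P = P := hP ⟨u, hu⟩
    have h2 : (⟨u, hu⟩ : U) • a ∈ (((⟨u, hu⟩ : U) • P : Sylow r L) : Subgroup L) := by
      rw [Sylow.pointwise_smul_def]
      exact smul_mem_pointwise_smul _ _ _ ha
    rw [h1] at h2
    exact ⟨_, h2, rfl⟩

theorem card_modEq_fix {s : ℕ} (hs : s.Prime) {y : G} (hy : orderOf y = s) {R : Subgroup G}
    (hn : y ∈ normalizer (R : Set G)) : Nat.card R ≡ Nat.card ↥(R ⊓ Cg y) [MOD s] := by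
  haveI := Fact.mk hs
  have hn' : zpowers y ≤ normalizer (R : Set G) := zpowers_le.2 hn
  have hU : IsPGroup s (zpowers y) := IsPGroup.of_card (n := 1) (by rw [Nat.card_zpowers, hy, pow_one])
  let φ : zpowers y →* MulAut R := (R.normalizerMonoidHom).comp (inclusion hn')
  letI : MulAction (zpowers y) R := MulAction.compHom R φ
  have h := hU.card_modEq_card_fixedPoints R
  have e : Nat.card (MulAction.fixedPoints (zpowers y) R) = Nat.card ↥(R ⊓ Cg y) := by
    refine Nat.card_congr
      { toFun := fun a => ⟨a.1.1, a.1.2, ?_⟩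
        invFun := fun b => ⟨⟨b.1, b.2.1⟩, ?_⟩
        left_inv := fun _ => rfl
        right_inv := fun _ => rfl }
    · have h1 := congrArg Subtype.val (a.2 ⟨y, mem_zpowers y⟩)
      have h2 : y * a.1.1 * y⁻¹ = a.1.1 := h1
      refine mem_centralizer_singleton_iff.2 ?_
      rw [mul_inv_eq_iff_eq_mul] at h2
      exact h2.symm
    · rintro ⟨u, k, rfl⟩
      apply Subtype.ext
      have h1 : Commute b.1 y := mem_centralizer_singleton_iff.1 b.2.2
      have h2 : Commute (y ^ k) b.1 := (h1.zpow_right k).symm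
      show y ^ k * b.1 * (y ^ k)⁻¹ = b.1
      rw [h2.eq, mul_inv_cancel_right]
  rwa [e] at h

theorem cop {s r : ℕ} (hs : s.Prime) (hr : r.Prime) {y : G} (hy : orderOf y = s) {L : Subgroup G}
    (hn : y ∈ normalizer (L : Set G)) (hL : ¬ s ∣ Nat.card L) :
    ∃ j, r ^ j ∣ Nat.card ↥(L ⊓ Cg y) ∧ r ^ j ∣ Nat.card (Cg y) ∧
      r ^ (Nat.card L).factorization r ≡ r ^ j [MOD s] := by
  haveI := Fact.mk hs
  have hU : IsPGroup s (zpowers y) := IsPGroup.of_card (n := 1) (by rw [Nat.card_zpowers, hy, pow_one])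
  obtain ⟨R, hRL, hc, hR⟩ := cop_grp hs hr hU (zpowers_le.2 hn) hL
  have hm := card_modEq_fix hs hy (hR (mem_zpowers y))
  have hd : Nat.card ↥(R ⊓ Cg y) ∣ r ^ (Nat.card L).factorization r :=
    hc ▸ card_dvd_of_le inf_le_left
  obtain ⟨j, -, hj⟩ := (Nat.dvd_prime_pow hr).1 hd
  refine ⟨j, ?_, ?_, ?_⟩
  · rw [← hj]; exact card_dvd_of_le (inf_le_inf_right _ hRL)
  · rw [← hj]; exact card_dvd_of_le inf_le_right
  · rw [← hj, ← hc]; exact hm

/-- inertial index one (Burnside + `cop`) -/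
theorem eone {q r : ℕ} (hq : q.Prime) (hr : r.Prime) (hrq : r ≠ q) {M : Subgroup G} {x : G}
    (hxM : x ∈ M) (hx : orderOf x = q) (hC : Cg x = zpowers x)
    (he : Nat.card ↥(Ng x ⊓ M) = q) : r ^ (Nat.card M).factorization r ≡ 1 [MOD q] := by
  haveI := Fact.mk hq
  set x' : M := ⟨x, hxM⟩ with hx'
  have ho : orderOf x' = q := by rw [← hx, ← orderOf_coe]
  have hcz : Nat.card (zpowers x) = q := by rw [Nat.card_zpowers, hx]
  have hcz' : Nat.card (zpowers x') = q := by rw [Nat.card_zpowers, ho]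
  have hNM : Ng x ⊓ M = zpowers x := by
    symm
    refine eq_of_le_of_card_ge (le_inf le_normalizer (zpowers_le.2 hxM)) ?_
    rw [he, hcz]
  -- the normaliser in `M`
  have hN : normalizer ((zpowers x' : Subgroup M) : Set M) ≤ zpowers x' := by
    intro m hm
    have h1 : (m : G) ∈ Ng x := by
      refine mem_normalizer_fintype ?_
      rintro _ ⟨k, rfl⟩
      obtain ⟨l, hl⟩ := (mem_normalizer_iff.1 hm (x' ^ k)).1 (zpow_mem (mem_zpowers _) k)
      exact ⟨l, by simpa [hx'] using congrArg Subtype.val hl⟩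
    have h2 : (m : G) ∈ zpowers x := hNM ▸ (⟨h1, m.2⟩ : (m : G) ∈ Ng x ⊓ M)
    obtain ⟨k, hk⟩ := h2
    exact ⟨k, Subtype.ext (by simpa [hx'] using hk)⟩
  have hU : IsPGroup q (zpowers x') := IsPGroup.of_card (n := 1) (by rw [hcz', pow_one])
  obtain ⟨P, hP⟩ := hU.exists_le_sylow
  have hPe : (P : Subgroup M) = zpowers x' := by
    by_contra hne
    have hlt : (zpowers x').subgroupOf (P : Subgroup M) < ⊤ := by
      rw [lt_top_iff_ne_top, Ne, subgroupOf_eq_top]
      exact fun h => hne (le_antisymm h hP)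
    haveI := P.isPGroup'.isNilpotent
    have h1 := Group.normalizerCondition_of_isNilpotent (G := (P : Subgroup M)) _ hlt
    apply h1.not_ge
    intro a ha
    rw [mem_subgroupOf]
    apply hN
    refine mem_normalizer_fintype ?_
    intro n hn
    have h3 := (mem_normalizer_iff.1 ha ⟨n, hP hn⟩).1 (mem_subgroupOf.2 hn)
    exact mem_subgroupOf.1 h3
  have hNC : normalizer ((P : Subgroup M) : Set M) ≤ centralizer ((P : Subgroup M) : Set M) := by
    rw [hPe]
    refine hN.trans ?_
    rintro _ ⟨k, rfl⟩ _ ⟨l, rfl⟩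
    exact ((Commute.refl x').zpow_zpow l k).eq
  have hcomp := MonoidHom.ker_transferSylow_isComplement' P hNC
  set K := (MonoidHom.transferSylow P hNC).ker with hK
  have hcard : Nat.card K * q = Nat.card M := by
    rw [← hcomp.card_mul, hPe, hcz']
  have hnd : ¬ q ∣ Nat.card K := by
    rw [← hcomp.index_eq_card]
    exact P.not_dvd_index
  have hcK : Nat.card (K.map M.subtype) = Nat.card K := card_map_of_injective M.subtype_injective
  have hxn : x ∈ normalizer ((K.map M.subtype : Subgroup G) : Set G) := by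
    refine mem_normalizer_fintype ?_
    rintro _ ⟨a, ha, rfl⟩
    exact ⟨x' * a * x'⁻¹, (MonoidHom.normal_ker _).conj_mem a ha x', rfl⟩
  obtain ⟨j, -, hj, hm⟩ := cop hq hr hx hxn (hcK ▸ hnd)
  rw [hC, hcz] at hj
  have hj0 : j = 0 := by
    by_contra h0
    exact hrq ((Nat.prime_dvd_prime_iff_eq hr hq).1 ((dvd_pow_self r h0).trans hj))
  have hf : (Nat.card M).factorization r = (Nat.card K).factorization r := by
    rw [← hcard, Nat.factorization_mul Nat.card_pos.ne' hq.ne_zero, Finsupp.add_apply,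
      hq.factorization, Finsupp.single_eq_of_ne hrq, add_zero]
  rw [hf, ← hcK]
  simpa [hj0] using hm

end Cfsg.Agent.MX
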