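import Mathlib
import Cfsg.Prelude.Def_JankoFourType
import Cfsg.Prelude.Def_Blocks

/-! Project MX (S5582): definitions. See notes/MX.md. -/

set_option autoImplicit false

namespace Cfsg.Agent.MX

open Cfsg Subgroup

/-- centraliser of an element -/
abbrev Cg {G : Type*} [Group G] (g : G) : Subgroup G := centralizer ({g} : Set G)

/-- normaliser of the cyclic group generated by an element -/
abbrev Ng {G : Type*} [Group G] (g : G) : Subgroup G :=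
  normalizer ((zpowers g : Subgroup G) : Set G)

/-- `d` is the degree of a non-principal irreducible character -/
def IsDeg (K : Type*) [Group K] (d : ℕ) : Prop :=
  ∃ χ : IrrCharacter K, (χ : K → ℂ) ≠ (fun _ => 1) ∧ charDegree (χ : K → ℂ) = d

/-- the degree equation of the principal `p`-block (Sylow of order `p`, inertial index `e`,
`c` the order of the centraliser of an element of order `p`), with signed degrees -/
def DegEq (K : Type*) [Group K] (p e c : ℕ) : Prop :=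
  ∃ (l : List ℤ) (y : ℤ), l.length + 1 = e ∧ 1 + l.sum = y ∧
    (∀ a ∈ l, IsDeg K a.natAbs ∧ a ≡ 1 [ZMOD p] ∧ a.natAbs * c ∣ Nat.card K) ∧
    IsDeg K y.natAbs ∧ y ≡ e [ZMOD p] ∧ y.natAbs * c ∣ Nat.card K

/-- the principal 7-block `{1, χ₂, χ₃, θ, θ'}` for inertial index 3 -/
structure Tri (K : Type*) [Group K] where
  χ₂ : IrrCharacter K
  χ₃ : IrrCharacter K
  θ : IrrCharacter K
  θ' : IrrCharacter K
  s₂ : ℤ
  s₃ : ℤ
  s : ℤ
  hs₂ : s₂ = 1 ∨ s₂ = -1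
  hs₃ : s₃ = 1 ∨ s₃ = -1
  hs : s = 1 ∨ s = -1
  ne₂ : (χ₂ : K → ℂ) ≠ fun _ => 1
  ne₃ : (χ₃ : K → ℂ) ≠ fun _ => 1
  ne₂₃ : χ₂ ≠ χ₃
  neθ : θ ≠ θ'
  mod₂ : s₂ * (charDegree (χ₂ : K → ℂ) : ℤ) ≡ 1 [ZMOD 7]
  mod₃ : s₃ * (charDegree (χ₃ : K → ℂ) : ℤ) ≡ 1 [ZMOD 7]
  modθ : s * (charDegree (θ : K → ℂ) : ℤ) ≡ 3 [ZMOD 7]
  sing₂ : ∀ g : K, 7 ∣ orderOf g → (χ₂ : K → ℂ) g = s₂
  sing₃ : ∀ g : K, 7 ∣ orderOf g → (χ₃ : K → ℂ) g = s₃
  singθ : ∀ g : K, 7 ∣ orderOf g → (θ : K → ℂ) g + (θ' : K → ℂ) g = -s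
  regθ : ∀ g : K, ¬ 7 ∣ orderOf g → (θ' : K → ℂ) g = (θ : K → ℂ) g
  reg : ∀ g : K, ¬ 7 ∣ orderOf g →
    (s : ℂ) * (θ : K → ℂ) g = 1 + s₂ * (χ₂ : K → ℂ) g + s₃ * (χ₃ : K → ℂ) g

namespace Tri

variable {K : Type*} [Group K] (T : Tri K)

/-- signed degrees -/
noncomputable def a : ℤ := T.s₂ * (charDegree (T.χ₂ : K → ℂ) : ℤ)
noncomputable def b : ℤ := T.s₃ * (charDegree (T.χ₃ : K → ℂ) : ℤ)
noncomputable def y : ℤ := T.s * (charDegree (T.θ : K → ℂ) : ℤ)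

theorem natAbs_a : T.a.natAbs = charDegree (T.χ₂ : K → ℂ) := by
  rcases T.hs₂ with h | h <;> simp [a, h]
theorem natAbs_b : T.b.natAbs = charDegree (T.χ₃ : K → ℂ) := by
  rcases T.hs₃ with h | h <;> simp [b, h]
theorem natAbs_y : T.y.natAbs = charDegree (T.θ : K → ℂ) := by
  rcases T.hs with h | h <;> simp [y, h]

end Tri

/-- the pairs (isolated prime, index of the centraliser in the normaliser) -/
def isoL : List (ℕ × ℕ) := [(23, 22), (29, 28), (31, 10), (37, 12), (43, 14)]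

/-- the local facts on a group of Janko-four type that the project uses -/
structure JF (G : Type*) [Group G] where
  z : G
  p : G
  x : G
  E : Subgroup G
  N : Subgroup G
  card_G : Nat.card G = 86775571046077562880
  ord_z : orderOf z = 2
  ord_p : orderOf p = 3
  ord_x : orderOf x = 11
  card_H : Nat.card (Cg z) = 21799895040
  c2 : ∀ g : G, orderOf g = 2 → Nat.card (Cg g) = 21799895040 ∨ Nat.card (Cg g) = 1816657920
  c3 : ∀ g : G, orderOf g = 3 → Nat.card (Cg g) = 2661120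
  c5 : ∀ g : G, orderOf g = 5 → Nat.card (Cg g) = 6720 ∧ Nat.card (Ng g) = 26880
  c7 : ∀ g : G, orderOf g = 7 → Nat.card (Cg g) = 840 ∧ Nat.card (Ng g) = 2520
  iso : ∀ q ∈ isoL, ∀ g : G, orderOf g = q.1 → Cg g = zpowers g ∧ Nat.card (Ng g) = q.1 * q.2
  c11 : ∀ g : G, orderOf g = 11 → IsConj x g ∨ Nat.card (Cg g) = 242
  c242 : ∃ g : G, orderOf g = 11 ∧ Nat.card (Cg g) = 242
  cx : Nat.card (Cg x) = 31944
  nx : Nat.card (Ng x) = 319440
  cxU : ∀ U : Sylow 11 (Cg x), (U : Subgroup (Cg x)).Normal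
  cxH : Nat.card ↥(Cg x ⊓ Cg z) = 264
  invol : ∀ w ∈ Cg z, w ∈ Cg x → w * w = 1 → w = 1 ∨ w = z
  x_mem : x ∈ Cg z
  p_mem : p ∈ Cg z
  p_x : p ∈ Cg x
  syl11 : ∀ U : Sylow 11 G, IsExtraspecial 11 ↥(U : Subgroup G) ∧
    Nat.card ↥(U : Subgroup G) = 1331 ∧ Monoid.exponent ↥(U : Subgroup G) = 11 ∧
    Nat.card ↥(normalizer ((U : Subgroup G) : Set G)) = 319440
  card_E : Nat.card E = 8192
  z_mem : z ∈ E
  E_le : E ≤ Cg z
  E_norm : Cg z ≤ normalizer (E : Set G)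
  cent_E : centralizer (E : Set G) ≤ zpowers z
  E_p : E ⊓ Cg p = zpowers z
  E_N : E ≤ N
  N_le : N ≤ Cg z
  N_norm : Cg z ≤ normalizer (N : Set G)
  card_N : Nat.card N = 24576
  syl3 : ∀ R : Sylow 3 G, (R : Subgroup G) ≤ Cg z → IsExtraspecial 3 ↥(R : Subgroup G) ∧
    Nat.card ↥(R : Subgroup G) = 27 ∧ normalizer ((R : Subgroup G) : Set G) ≤ Cg z
  uniqV : ∀ T : Sylow 2 G, ∃! V : Subgroup G,
    V ≤ (T : Subgroup G) ∧ IsElementaryAbelian 2 V ∧ Nat.card ↥V = 2 ^ 11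

end Cfsg.Agent.MX
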